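import Cfsg.Agent.GW.Three

/-!
# Three conjugate linear characters of a subgroup of index three in `N(T)`, `T` abelian
-/

set_option autoImplicit false
set_option linter.unusedSectionVars false
set_option linter.unusedVariables false
set_option linter.style.haveILetI false

namespace Cfsg.GW

open Subgroup
open scoped ComplexConjugate commutatorElement

universe u

variable {G : Type u} [Group G] [Finite G]

local notation "N(" P ")" => Subgroup.normalizer (SetLike.coe P)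
local notation "C(" P ")" => Subgroup.centralizer (SetLike.coe P)

theorem exists_normalizer_conj_set {p : ℕ} [Fact p.Prime] (P : Sylow p G)
    (hab : (P : Subgroup G) ≤ C((P : Subgroup G))) {S : Set G} {g : G}
    (h1 : ∀ x ∈ S, x ∈ (P : Subgroup G)) (h2 : ∀ x ∈ S, g * x * g⁻¹ ∈ (P : Subgroup G)) :
    ∃ n ∈ N((P : Subgroup G)), ∀ x ∈ S, g * x * g⁻¹ = n * x * n⁻¹ := by
  let _ : MulAction G (S → G) := MulAction.compHom (S → G) (MulAut.conj : G →* MulAut G)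
  obtain ⟨n, hn, e⟩ := exists_mem_normalizer_smul_eq P (ω := fun x : S => (x : G)) (g := g)
    (fun a ha => funext fun x => mul_inv_eq_iff_eq_mul.mpr (hab (h1 x x.2) a ha))
    fun a ha => funext fun x => mul_inv_eq_iff_eq_mul.mpr (hab (h2 x x.2) a ha)
  exact ⟨n, hn, fun x hx => (congrFun e ⟨x, hx⟩).symm⟩

theorem exists_classFun_ext {p : ℕ} [Fact p.Prime] (P : Sylow p G)
    (hab : (P : Subgroup G) ≤ C((P : Subgroup G))) {η : G → ℂ}
    (h : ∀ n ∈ N((P : Subgroup G)), ∀ t ∈ (P : Subgroup G), η (n * t * n⁻¹) = η t) :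
    ∃ F, IsClassFunction G F ∧ ∀ t ∈ (P : Subgroup G), F t = η t := by
  classical
  let F : G → ℂ := fun g => if e : ∃ x, x * g * x⁻¹ ∈ (P : Subgroup G) then
    η (e.choose * g * e.choose⁻¹) else 0
  have key : ∀ g x, x * g * x⁻¹ ∈ (P : Subgroup G) → F g = η (x * g * x⁻¹) := fun g x hx => by
    have e : ∃ x, x * g * x⁻¹ ∈ (P : Subgroup G) := ⟨x, hx⟩
    have e1 : e.choose * x⁻¹ * (x * g * x⁻¹) * (e.choose * x⁻¹)⁻¹ =
      e.choose * g * e.choose⁻¹ := by group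
    obtain ⟨n, hn, e2⟩ := exists_mem_normalizer_conj_eq P (g := e.choose * x⁻¹) (hab hx)
      (hab (e1 ▸ e.choose_spec))
    simp only [F, dif_pos e]
    rw [← e1, ← e2, h n hn _ hx]
  refine ⟨F, fun g y => ?_, fun t ht => by simpa using key t 1 (by simpa using ht)⟩
  by_cases e : ∃ x, x * g * x⁻¹ ∈ (P : Subgroup G)
  · obtain ⟨x, hx⟩ := e
    have e1 : x * y⁻¹ * (y * g * y⁻¹) * (x * y⁻¹)⁻¹ = x * g * x⁻¹ := by group
    rw [key g x hx, key _ (x * y⁻¹) (e1 ▸ hx), e1]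
  · have e' : ¬ ∃ x, x * (y * g * y⁻¹) * x⁻¹ ∈ (P : Subgroup G) := fun ⟨x, hx⟩ =>
      e ⟨x * y, by convert hx using 1; group⟩
    simp only [F, dif_neg e, dif_neg e']

theorem exists_conj_three {p : ℕ} [Fact p.Prime] (P : Sylow p G) {a b c : G} (ha : IsPElt p a)
    (hb : IsPElt p b) (hc : IsPElt p c) (hab : Commute a b) (hac : Commute a c)
    (hbc : Commute b c) : ∃ g : G, g * a * g⁻¹ ∈ (P : Subgroup G) ∧
      g * b * g⁻¹ ∈ (P : Subgroup G) ∧ g * c * g⁻¹ ∈ (P : Subgroup G) := by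
  have key : ∀ {x y : G}, Commute x y → zpowers x ≤ N(zpowers y) := fun e =>
    zpowers_le.2 (centralizer_le_normalizer _ (by
      rintro _ ⟨k, rfl⟩
      exact (e.zpow_right k).symm))
  obtain ⟨R, hR⟩ := (((isPElt_iff_isPGroup_zpowers.1 ha).to_sup_of_normal_right'
    (isPElt_iff_isPGroup_zpowers.1 hb) (key hab)).to_sup_of_normal_right'
    (isPElt_iff_isPGroup_zpowers.1 hc) (sup_le (key hac) (key hbc))).exists_le_sylow
  obtain ⟨g, rfl⟩ := MulAction.exists_smul_eq G R P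
  exact ⟨g, ⟨a, hR (mem_sup_left (mem_sup_left (mem_zpowers _))), rfl⟩,
    ⟨b, hR (mem_sup_left (mem_sup_right (mem_zpowers _))), rfl⟩,
    ⟨c, hR (mem_sup_right (mem_zpowers _)), rfl⟩⟩

/-- `m` is a linear character of the normal subgroup `H` of index three in `N(T)`. -/
structure AbTri (T : Sylow 2 G) (H : Subgroup G) (m : G → ℂ) (r : G) : Prop where
  comm : (T : Subgroup G) ≤ C((T : Subgroup G))
  tle : (T : Subgroup G) ≤ H
  hle : H ≤ N((T : Subgroup G))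
  nrm : ∀ n ∈ N((T : Subgroup G)), ∀ k ∈ H, n * k * n⁻¹ ∈ H
  idx : H.relIndex N((T : Subgroup G)) = 3
  rmem : r ∈ N((T : Subgroup G))
  rnot : r ∉ H
  mul : ∀ a ∈ H, ∀ b ∈ H, m (a * b) = m a * m b
  one : m 1 = 1
  perf : (T : Subgroup G) ≤ ⁅(T : Subgroup G), N((T : Subgroup G))⁆

/-- The sum of the three conjugates. -/
def eta3 (m : G → ℂ) (r g : G) : ℂ :=
  m g + m (r * g * r⁻¹) + m (r * (r * g * r⁻¹) * r⁻¹)

namespace AbTri

variable {T : Sylow 2 G} {H : Subgroup G} {m : G → ℂ} {r : G}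

theorem cases (h : AbTri T H m r) {s n : G} (hs : s ∈ N((T : Subgroup G))) (hs' : s ∉ H)
    (hn : n ∈ N((T : Subgroup G))) :
    s ^ 3 ∈ H ∧ ∃ k ∈ H, ∃ i : ℕ, n = k * s ^ i := by
  haveI : (H.subgroupOf N((T : Subgroup G))).Normal := ⟨fun k hk n => h.nrm n n.2 k hk⟩
  have h3 : Nat.card (N((T : Subgroup G)) ⧸ H.subgroupOf N((T : Subgroup G))) = 3 := h.idx
  haveI : Fact (Nat.Prime 3) := ⟨Nat.prime_three⟩
  refine ⟨?_, ?_⟩
  · have := (H.subgroupOf N((T : Subgroup G))).pow_index_mem ⟨s, hs⟩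
    rwa [show (H.subgroupOf N((T : Subgroup G))).index = 3 from h.idx] at this
  obtain ⟨i, hi⟩ := (mem_powers_iff_mem_zpowers.2 (mem_zpowers_of_prime_card h3
    (g := ((⟨s, hs⟩ : N((T : Subgroup G))) : _ ⧸ H.subgroupOf _))
    (g' := ((⟨n, hn⟩ : N((T : Subgroup G))) : _ ⧸ H.subgroupOf _))
    fun e => hs' (mem_subgroupOf.1 ((QuotientGroup.eq_one_iff _).1 e))))
  have h1 : (s ^ i)⁻¹ * n ∈ H := by
    simp only at hi
    rw [← QuotientGroup.mk_pow, QuotientGroup.eq] at hi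
    exact hi
  exact ⟨_, h.nrm _ (pow_mem hs i) _ h1, i, by group⟩

theorem inv_mul (h : AbTri T H m r) {a : G} (ha : a ∈ H) : m a⁻¹ * m a = 1 := by
  rw [← h.mul _ (inv_mem ha) _ ha, inv_mul_cancel, h.one]

theorem conj_eq (h : AbTri T H m r) {k g : G} (hk : k ∈ H) (hg : g ∈ H) :
    m (k * g * k⁻¹) = m g := by
  rw [h.mul _ (mul_mem hk hg) _ (inv_mem hk), h.mul _ hk _ hg]
  linear_combination m g * h.inv_mul hk

theorem pow (h : AbTri T H m r) {a : G} (ha : a ∈ H) (i : ℕ) : m (a ^ i) = m a ^ i := by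
  induction i with
  | zero => simpa using h.one
  | succ i ih => rw [pow_succ, h.mul _ (pow_mem ha i) _ ha, ih, pow_succ]

theorem mul_conj (h : AbTri T H m r) {a : G} (ha : a ∈ H) : m a * conj (m a) = 1 := by
  have := Complex.norm_eq_one_of_pow_eq_one (n := orderOf a) (ζ := m a)
    (by rw [← h.pow ha, pow_orderOf_eq_one, h.one]) (orderOf_pos a).ne'
  rw [Complex.mul_conj', this]; simp

/-- The conjugate character. -/
theorem shift (h : AbTri T H m r) {n : G} (hn : n ∈ N((T : Subgroup G))) :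
    AbTri T H (fun g => m (n * g * n⁻¹)) r :=
  { h with
    mul := fun a ha b hb => by
      rw [← h.mul _ (h.nrm n hn a ha) _ (h.nrm n hn b hb)]; congr 1; group
    one := by simpa using h.one }

theorem invariant (h : AbTri T H m r) {Φ : ℂ → ℂ → ℂ → ℂ} (hΦ : ∀ x y z, Φ x y z = Φ y z x)
    {n g : G} (hn : n ∈ N((T : Subgroup G))) (hg : g ∈ H) :
    Φ (m (n * g * n⁻¹)) (m (r * (n * g * n⁻¹) * r⁻¹)) (m (r * (r * (n * g * n⁻¹) * r⁻¹) * r⁻¹)) =
      Φ (m g) (m (r * g * r⁻¹)) (m (r * (r * g * r⁻¹) * r⁻¹)) := by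
  obtain ⟨h3, k, hk, i, rfl⟩ := h.cases h.rmem h.rnot hn
  have hi : r ^ i * g * (r ^ i)⁻¹ ∈ H := h.nrm _ (pow_mem h.rmem i) _ hg
  rw [show k * r ^ i * g * (k * r ^ i)⁻¹ = k * (r ^ i * g * (r ^ i)⁻¹) * k⁻¹ by group,
    h.conj_eq hk hi, (h.shift h.rmem).conj_eq hk hi,
    ((h.shift h.rmem).shift h.rmem).conj_eq hk hi]
  clear hn hi
  induction i with
  | zero => simp
  | succ i ih =>
    rw [← ih, hΦ (m (r ^ i * g * (r ^ i)⁻¹)),
      ← h.conj_eq h3 (h.nrm _ (pow_mem h.rmem i) _ hg)]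
    congr 2 <;> group

theorem eta_conj (h : AbTri T H m r) {n g : G} (hn : n ∈ N((T : Subgroup G))) (hg : g ∈ H) :
    eta3 m r (n * g * n⁻¹) = eta3 m r g :=
  h.invariant (Φ := fun x y z => x + y + z) (fun x y z => by ring) hn hg

theorem prod_eq_one (h : AbTri T H m r) {t : G} (ht : t ∈ (T : Subgroup G)) :
    m t * m (r * t * r⁻¹) * m (r * (r * t * r⁻¹) * r⁻¹) = 1 := by
  have h1 := h.shift h.rmem
  have h2 := h1.shift h.rmem
  let K : Subgroup G :=
    { carrier := {g | g ∈ H ∧ m g * m (r * g * r⁻¹) * m (r * (r * g * r⁻¹) * r⁻¹) = 1}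
      one_mem' := ⟨one_mem _, by simp [h.one]⟩
      mul_mem' := fun {a b} ha hb => ⟨mul_mem ha.1 hb.1, by
        rw [h.mul a ha.1 b hb.1, h1.mul a ha.1 b hb.1, h2.mul a ha.1 b hb.1]
        linear_combination (m b * m (r * b * r⁻¹) * m (r * (r * b * r⁻¹) * r⁻¹)) * ha.2 + hb.2⟩
      inv_mem' := fun {a} ha => ⟨inv_mem ha.1, by
        have e0 := h.inv_mul ha.1
        have e1 := h1.inv_mul ha.1
        have e2 := h2.inv_mul ha.1
        rw [← mul_one (_ * _ * _), ← ha.2]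
        linear_combination (exp := 1) (m (r * a⁻¹ * r⁻¹) * m (r * a * r⁻¹) *
          (m (r * (r * a⁻¹ * r⁻¹) * r⁻¹) * m (r * (r * a * r⁻¹) * r⁻¹))) * e0 +
          (m (r * (r * a⁻¹ * r⁻¹) * r⁻¹) * m (r * (r * a * r⁻¹) * r⁻¹)) * e1 + e2 - ha.2⟩ }
  refine (h.perf.trans (commutator_le.2 fun a ha n hn => (?_ : _ ∈ K)) ht).2
  have ha' := h.tle ha
  have hb := h.nrm n hn _ (inv_mem ha')
  rw [show ⁅a, n⁆ = a * (n * a⁻¹ * n⁻¹) by rw [commutatorElement_def]; group]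
  refine ⟨mul_mem ha' hb, ?_⟩
  have e := h.invariant (Φ := fun x y z => x * y * z) (fun x y z => by ring) hn (inv_mem ha')
  have e0 := h.inv_mul ha'
  have e1 := h1.inv_mul ha'
  have e2 := h2.inv_mul ha'
  rw [h.mul a ha' _ hb, h1.mul a ha' _ hb, h2.mul a ha' _ hb]
  linear_combination (m a * m (r * a * r⁻¹) * m (r * (r * a * r⁻¹) * r⁻¹)) * e +
    (m (r * a⁻¹ * r⁻¹) * m (r * a * r⁻¹) *
          (m (r * (r * a⁻¹ * r⁻¹) * r⁻¹) * m (r * (r * a * r⁻¹) * r⁻¹))) * e0 +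
          (m (r * (r * a⁻¹ * r⁻¹) * r⁻¹) * m (r * (r * a * r⁻¹) * r⁻¹)) * e1 + e2

theorem eta_of_fixed (h : AbTri T H m r) {d s : G} (hd : d ∈ (T : Subgroup G))
    (hs : s ∈ N((T : Subgroup G))) (hs' : s ∉ H) (e : s * d * s⁻¹ = d) : eta3 m r d = 3 := by
  have key : ∀ n ∈ N((T : Subgroup G)), m (n * d * n⁻¹) = m d := fun n hn => by
    obtain ⟨-, k, hk, i, rfl⟩ := h.cases hs hs' hn
    have : s ^ i * d = d * s ^ i := (Commute.pow_left (mul_inv_eq_iff_eq_mul.1 e) i).eq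
    rw [← h.conj_eq hk (h.tle hd)]
    congr 1
    rw [mul_assoc k, this]; group
  have e1 := key r h.rmem
  have e2 : m (r * (r * d * r⁻¹) * r⁻¹) = m d := by
    rw [← key _ (mul_mem h.rmem h.rmem)]; congr 1; group
  have e3 := h.prod_eq_one hd
  obtain ⟨j, hj⟩ := isPElt_iff_pow_eq_one.1 (isPElt_of_mem T.isPGroup' hd)
  have e4 : m d ^ 2 ^ j = 1 := by rw [← h.pow (h.tle hd), hj, h.one]
  rw [e1, e2] at e3
  have e5 : m d = 1 := by
    have := pow_gcd_eq_one.2 ⟨e4, (by linear_combination e3 : m d ^ 3 = 1)⟩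
    rwa [Nat.Coprime.pow_left j (by norm_num), pow_one] at this
  rw [eta3, e1, e2, e5]; norm_num

theorem signs (h : AbTri T H m r) {u : G} (hu : u ∈ (T : Subgroup G)) (h2 : u * u = 1) :
    (m u = 1 ∧ m (r * u * r⁻¹) = 1 ∧ m (r * (r * u * r⁻¹) * r⁻¹) = 1) ∨
    (m u = 1 ∧ m (r * u * r⁻¹) = -1 ∧ m (r * (r * u * r⁻¹) * r⁻¹) = -1) ∨
    (m u = -1 ∧ m (r * u * r⁻¹) = 1 ∧ m (r * (r * u * r⁻¹) * r⁻¹) = -1) ∨
    (m u = -1 ∧ m (r * u * r⁻¹) = -1 ∧ m (r * (r * u * r⁻¹) * r⁻¹) = 1) := by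
  have h1 := h.shift h.rmem
  have e := h.prod_eq_one hu
  have e0 := h.mul _ (h.tle hu) _ (h.tle hu)
  have e1 := h1.mul _ (h.tle hu) _ (h.tle hu)
  rw [h2, h.one] at e0
  rw [h2, h1.one] at e1
  rcases mul_self_eq_one_iff.1 e0.symm with a | a <;>
    rcases mul_self_eq_one_iff.1 e1.symm with b | b <;> rw [a, b] at e
  · exact Or.inl ⟨a, b, by linear_combination e⟩
  · exact Or.inr (Or.inl ⟨a, b, by linear_combination -e⟩)
  · exact Or.inr (Or.inr (Or.inl ⟨a, b, by linear_combination -e⟩))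
  · exact Or.inr (Or.inr (Or.inr ⟨a, b, by linear_combination e⟩))

theorem eta_mul (h : AbTri T H m r) {a b : G} (ha : a ∈ (T : Subgroup G))
    (hb : b ∈ (T : Subgroup G)) (h2 : b * b = 1) (h3 : eta3 m r b = 3) :
    eta3 m r (a * b) = eta3 m r a := by
  have h1 := h.shift h.rmem
  rcases h.signs hb h2 with ⟨x, y, z⟩ | ⟨x, y, z⟩ | ⟨x, y, z⟩ | ⟨x, y, z⟩
  · rw [eta3, h.mul _ (h.tle ha) _ (h.tle hb), h1.mul _ (h.tle ha) _ (h.tle hb),
      (h1.shift h.rmem).mul _ (h.tle ha) _ (h.tle hb), x, y, z, eta3]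
    ring
  all_goals
    rw [eta3, x, y, z] at h3
    norm_num at h3

theorem sum_norm [Fintype H] (h : AbTri T H m r) {v : G} (hv : v ∈ (T : Subgroup G))
    (h2 : v * v = 1) (hc : v ∈ C(H)) (hm : m v ≠ 1) :
    ∑ y : H, (eta3 m r (pPart 2 (y : G)) - 2) * conj (eta3 m r (pPart 2 (y : G)) - 2) =
      7 * Nat.card H := by
  have h1 := h.shift h.rmem
  have h1' := h1.shift h.rmem
  let φ : ℂ → ℂ → ℂ → ℂ := fun x y z => (x + y + z - 2) * conj (x + y + z - 2)
  let Φ : ℂ → ℂ → ℂ → ℂ := fun a b c => ∑ y : H, φ (a * m (pPart 2 (y : G)))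
    (b * m (r * pPart 2 (y : G) * r⁻¹)) (c * m (r * (r * pPart 2 (y : G) * r⁻¹) * r⁻¹))
  have tr : ∀ a ∈ (T : Subgroup G), a ∈ C(H) →
      Φ (m a) (m (r * a * r⁻¹)) (m (r * (r * a * r⁻¹) * r⁻¹)) = Φ 1 1 1 := fun a ha hac => by
    refine Eq.symm (Fintype.sum_equiv (Equiv.mulLeft (⟨a, h.tle ha⟩ : H)).symm _ _ fun y => ?_)
    obtain ⟨y, rfl⟩ := (Equiv.mulLeft (⟨a, h.tle ha⟩ : H)).surjective y
    have hy : pPart 2 (y : G) ∈ H := pPart_mem 2 y.2
    rw [Equiv.symm_apply_apply, Equiv.coe_mulLeft, coe_mul,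
      pPart_mul_of_commute 2 (hac _ y.2).symm, pPart_eq_self_iff.2 (isPElt_of_mem T.isPGroup' ha),
      h.mul _ (h.tle ha) _ hy, h1.mul _ (h.tle ha) _ hy, h1'.mul _ (h.tle ha) _ hy]
    simp only [one_mul]
  have cj : ∀ a ∈ (T : Subgroup G), a ∈ C(H) →
      r * a * r⁻¹ ∈ (T : Subgroup G) ∧ r * a * r⁻¹ ∈ C(H) := fun a ha hac =>
    ⟨(mem_normalizer_iff.1 h.rmem _).1 ha, fun k hk => by
      have := hac _ (h.nrm _ (inv_mem h.rmem) k hk)
      calc _ = r * (r⁻¹ * k * r⁻¹⁻¹ * a) * r⁻¹ := by group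
        _ = _ := by rw [this]; group⟩
  have r3 : ∀ a ∈ (T : Subgroup G), m (r * (r * (r * a * r⁻¹) * r⁻¹) * r⁻¹) = m a := fun a ha => by
    rw [← h.conj_eq (h.cases h.rmem h.rnot h.rmem).1 (h.tle ha), pow_three]
    congr 1; group
  have t0 := tr v hv hc
  have t1 := tr _ (cj v hv hc).1 (cj v hv hc).2
  have t2 := tr _ (cj _ (cj v hv hc).1 (cj v hv hc).2).1 (cj _ (cj v hv hc).1 (cj v hv hc).2).2
  rw [r3 v hv] at t1 t2
  rw [r3 _ (cj v hv hc).1] at t2
  have had : Φ 1 1 1 + Φ 1 (-1) (-1) + Φ (-1) 1 (-1) + Φ (-1) (-1) 1 = 28 * Nat.card H := by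
    simp only [Φ, ← Finset.sum_add_distrib]
    rw [Finset.sum_congr rfl (g := fun _ => 28), Finset.sum_const, Finset.card_univ,
      Nat.card_eq_fintype_card, nsmul_eq_mul, mul_comm]
    intro y _
    have hy : pPart 2 (y : G) ∈ H := pPart_mem 2 y.2
    have e0 := h.mul_conj hy
    have e1 := h1.mul_conj hy
    have e2 := h1'.mul_conj hy
    simp only [φ, map_sub, map_add, map_mul, map_neg, map_one, map_ofNat]
    linear_combination 4 * e0 + 4 * e1 + 4 * e2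
  have : Φ 1 1 1 = 7 * Nat.card H := by
    rcases h.signs hv h2 with ⟨x, y, z⟩ | ⟨x, y, z⟩ | ⟨x, y, z⟩ | ⟨x, y, z⟩
    · exact absurd x hm
    · exact absurd x hm
    all_goals
      rw [x, y, z] at t0 t1 t2
      rw [t0, t1, t2] at had
      linear_combination had / 4
  simpa only [Φ, φ, one_mul, eta3] using this

theorem ip_self_eq_three (h : AbTri T H m r) {v : G} (hv : v ∈ (T : Subgroup G))
    (h2 : v * v = 1) (hc : v ∈ C(H)) (hm : m v ≠ 1) {F : G → ℂ} (hF : IsClassFunction G F)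
    (hFT : ∀ t ∈ (T : Subgroup G), F t = eta3 m r t) :
    ip (fun g => F (pPart 2 g) - 2) (fun g => F (pPart 2 g) - 2) = 3 := by
  classical
  haveI := Fintype.ofFinite G
  let Y := N((T : Subgroup G))
  have hc' : CtlFus 2 Y.subtype := ctlFus_subtype T le_normalizer fun Q hQ g hg =>
    exists_normalizer_conj_set T h.comm hQ hg
  have e1 := hc'.ip_one_eq (f := fun x => (F x - 2) * conj (F x - 2)) fun g y => by
    simp only [hF g y]
  have e2 : ∀ y : Y, pPart 2 (y : G) ∈ (T : Subgroup G) := fun y =>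
    (((isPElt_iff_isPGroup_zpowers.1 (isPElt_pPart 2 _)).inf_normalizer_sylow T).le
      ⟨mem_zpowers _, pPart_mem 2 y.2⟩).2
  rw [ip_def] at e1 ⊢
  simp only [map_one, mul_one] at e1
  rw [e1, ip_def]
  simp only [map_one, mul_one, coe_subtype, coe_pPart, hFT _ (e2 _)]
  rw [← Finset.sum_filter_add_sum_filter_not _ fun y : Y => (y : G) ∈ H]
  have e3 : ∑ y ∈ Finset.univ.filter (fun y : Y => (y : G) ∈ H), (eta3 m r (pPart 2 (y : G)) - 2) *
      conj (eta3 m r (pPart 2 (y : G)) - 2) = 7 * Nat.card H := by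
    rw [← h.sum_norm hv h2 hc hm]
    refine Finset.sum_bij (fun y hy => ⟨y, (Finset.mem_filter.1 hy).2⟩) (by simp)
      (fun a _ b _ e => Subtype.ext (by simpa using e))
      (fun b _ => ⟨⟨b, h.hle b.2⟩, by simp, rfl⟩) fun _ _ => rfl
  have e4 : Nat.card Y = Nat.card H * 3 := by
    rw [← h.idx, ← card_mul_index (H.subgroupOf Y), Nat.card_congr
      (subgroupOfEquivOfLe h.hle).toEquiv]
    rfl
  have e5 : (Finset.univ.filter fun y : Y => (y : G) ∈ H).card = Nat.card H := by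
    rw [← Nat.card_congr (subgroupOfEquivOfLe h.hle).toEquiv, ← Fintype.card_subtype,
      Nat.card_eq_fintype_card]
    rfl
  have e6 := Finset.card_filter_add_card_filter_not (s := Finset.univ) fun y : Y => (y : G) ∈ H
  rw [e5, Finset.card_univ, ← Nat.card_eq_fintype_card, e4] at e6
  rw [e3, Finset.sum_congr rfl (g := fun _ => 1), Finset.sum_const, nsmul_eq_mul, mul_one,
    show (Finset.univ.filter fun y : Y => (y : G) ∉ H).card = 2 * Nat.card H by omega, e4]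
  · have := natCard_cast_ne_zero H
    push_cast
    field_simp
    norm_num
  intro y hy
  rw [h.eta_of_fixed (e2 y) y.2 (Finset.mem_filter.1 hy).2
    (mul_inv_eq_iff_eq_mul.2 (commute_pPart_of_commute 2 (Commute.refl _)).eq)]
  norm_num

theorem isGen (h : AbTri T H m r) {F : G → ℂ} (hF : IsClassFunction G F)
    (hFT : ∀ t ∈ (T : Subgroup G), F t = eta3 m r t) :
    IsGeneralizedCharacter G fun g => F (pPart 2 g) - 2 := by
  have key : ∀ {m : G → ℂ}, AbTri T H m r → ∀ (P : Subgroup G) (g : G),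
      (∀ x ∈ P, g * x * g⁻¹ ∈ (T : Subgroup G)) →
      IsGeneralizedCharacter P fun x => m (g * x * g⁻¹) := fun {m} h P g hg =>
    (isCharacter_linear (MonoidHom.toHomUnits
      { toFun := fun x : P => m (g * x * g⁻¹)
        map_one' := by simpa using h.one
        map_mul' := fun x y => by
          rw [← h.mul _ (h.tle (hg x x.2)) _ (h.tle (hg y y.2)), coe_mul]
          congr 1; group })).isGen
  have h1 := (hF.isGen_comp_pPart 2 fun P hP => by
    obtain ⟨R, hR⟩ := hP.exists_le_sylow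
    obtain ⟨g, e⟩ := MulAction.exists_smul_eq G R T
    have hg : ∀ x ∈ P, g * x * g⁻¹ ∈ (T : Subgroup G) := fun x hx => e ▸ ⟨x, hR hx, rfl⟩
    convert ((key h P g hg).add (key (h.shift h.rmem) P g hg)).add
      (key ((h.shift h.rmem).shift h.rmem) P g hg) using 1
    funext x
    exact (hF x g).symm.trans (hFT _ (hg x x.2))).sub
      ((IrrCharacter.one G).isCharacter.isGen.zsmul 2)
  convert h1 using 1
  funext g
  simp

theorem apply_mul (h : AbTri T H m r) {F : G → ℂ} (hF : IsClassFunction G F)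
    (hFT : ∀ t ∈ (T : Subgroup G), F t = eta3 m r t) {a b : G} (ha : a * a = 1) (hb : b * b = 1)
    (hab : Commute a b) (h3 : F b = 3) : F (a * b) = F a := by
  obtain ⟨g, h1, h2, -⟩ := exists_conj_three T (isPElt_two_of_mul_self ha)
    (isPElt_two_of_mul_self hb) (isPElt_one 2) hab (Commute.one_right _) (Commute.one_right _)
  rw [← hF b g, hFT _ h2] at h3
  rw [← hF a g, ← hF _ g, hFT _ h1, ← h.eta_mul h1 h2 (by rw [conj_mul, hb]; simp) h3,
    ← hFT _ (mul_mem h1 h2), conj_mul]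

theorem apply_pPart (h : AbTri T H m r) {F : G → ℂ} (hF : IsClassFunction G F)
    (hFT : ∀ t ∈ (T : Subgroup G), F t = eta3 m r t) {a b : G} (ha : a * a = 1) (hb : b * b = 1)
    (h3 : F b = 3) : F (pPart 2 (a * b)) = F a := by
  obtain ⟨h1, h2⟩ := invol_mul_pPart T h.comm ha hb
  set d := pPart 2 (a * b) with hd
  have h4 : a * d * (a * d) = 1 := by rw [h1.symm.mul_mul_mul_comm, ha, h2, one_mul]
  have h5 : a * d * b = pPrimePart 2 (a * b) := by
    rw [h1.eq, mul_assoc, ← mul_right_inj d, ← mul_assoc, h2, one_mul, pPart_mul_pPrimePart]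
  obtain ⟨x, hx⟩ := isConj_iff.1 (isConj_of_mul_self_of_isPRegular h4 hb
    (h5 ▸ isPRegular_pPrimePart 2 _))
  rw [← h.apply_mul hF hFT ha h4 ((Commute.refl a).mul_right h1) (by rw [← hx, hF, h3]),
    ← mul_assoc, ha, one_mul]

theorem isolated (h : AbTri T H m r) {F : G → ℂ} (hF : IsClassFunction G F)
    (hFT : ∀ t ∈ (T : Subgroup G), F t = eta3 m r t) {v d x : G} (hv : v ∈ (T : Subgroup G))
    (hc : v ∈ C(H)) (hd : IsPElt 2 d) (h3 : F d ≠ 3) (hvd : Commute v d) (hxd : Commute x d)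
    (hx : Commute v (x * v * x⁻¹)) : x * v * x⁻¹ = v := by
  have hv2 := isPElt_of_mem T.isPGroup' hv
  obtain ⟨g, h1, h2, h4⟩ := exists_conj_three T hv2 (isPElt_conj_iff.2 hv2) hd hx hvd
    ((hxd.mul_left hvd).mul_left hxd.inv_left)
  have e1 : g * x * g⁻¹ * (g * v * g⁻¹) * (g * x * g⁻¹)⁻¹ = g * (x * v * x⁻¹) * g⁻¹ := by group
  have e2 : g * x * g⁻¹ * (g * d * g⁻¹) * (g * x * g⁻¹)⁻¹ = g * d * g⁻¹ := by
    rw [conj_mul, hxd.eq]; group
  obtain ⟨n, hn, e⟩ := exists_normalizer_conj_set T h.comm (S := {g * v * g⁻¹, g * d * g⁻¹})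
    (g := g * x * g⁻¹) (by rintro _ (rfl | rfl); exacts [h1, h4])
    (by rintro _ (rfl | rfl); exacts [e1 ▸ h2, e2.symm ▸ h4])
  have hnH : n ∈ H := by
    by_contra hn'
    exact h3 (by rw [← hF d g, hFT _ h4, h.eta_of_fixed h4 hn hn' ((e _ (by simp)).symm.trans e2)])
  obtain ⟨k, hk, e3⟩ := exists_mem_normalizer_conj_eq T (h.comm hv) (h.comm h1)
  have e4 := hc _ (h.nrm _ (inv_mem hk) n hnH)
  have e5 := e _ (Set.mem_insert _ _)
  rw [e1] at e5
  refine (MulAut.conj g).injective (e5.trans ?_)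
  rw [MulAut.conj_apply, ← e3]
  calc _ = k * (k⁻¹ * n * k⁻¹⁻¹ * v) * k⁻¹ * n⁻¹ := by group
    _ = _ := by rw [e4]; group

theorem false_of [IsSimpleGroup G] (hna : ¬ IsMulCommutative G) (h : AbTri T H m r) {v c : G}
    (hv : v ∈ (T : Subgroup G)) (hv2 : orderOf v = 2) (hvc : v ∈ C(H)) (hm : m v ≠ 1)
    (hc : c ∈ (T : Subgroup G)) (hc2 : orderOf c = 2) (hc3 : eta3 m r c = 3) : False := by
  obtain ⟨F, hF, hFT⟩ := exists_classFun_ext T h.comm (η := eta3 m r) fun n hn t ht =>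
    h.eta_conj hn (h.tle ht)
  have hvv : v * v = 1 := mul_self_of_isConj_of_orderOf hv2 (IsConj.refl v)
  have F1 : F 1 = 3 := by
    rw [hFT _ (one_mem _)]; simp only [eta3, mul_one, mul_inv_cancel, h.one]; norm_num
  have Fc : ∀ y, IsConj c y → F y = 3 := fun y hy => by
    obtain ⟨x, rfl⟩ := isConj_iff.1 hy
    rw [hF, hFT _ hc, hc3]
  have Fv : F v = -1 := by
    rw [hFT _ hv, eta3]
    rcases h.signs hv hvv with ⟨x, y, z⟩ | ⟨x, y, z⟩ | ⟨x, y, z⟩ | ⟨x, y, z⟩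
    · exact absurd x hm
    all_goals rw [x, y, z]; norm_num
  have pp : ∀ {u : G}, u * u = 1 → pPart 2 u = u := fun hu =>
    pPart_eq_self_iff.2 (isPElt_two_of_mul_self hu)
  have sq := fun {y} => mul_self_of_isConj_of_orderOf (x := y) hc2
  refine false_of_three hna (h.isGen hF hFT) (fun g => by simp)
    (by rw [h.ip_self_eq_three hv hvv hvc hm hF hFT]; norm_num) hc2 hv2
    (by rw [pp (sq (IsConj.refl c)), Fc c (IsConj.refl c), pPart_one, F1])
    (fun a b ha hb => by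
      rw [h.apply_pPart hF hFT (sq ha) (sq hb) (Fc b hb), Fc a ha, pPart_one, F1])
    (T := {u | u * u = 1 ∧ F u = -1}) ⟨hvv, Fv⟩ (fun u hu => ⟨by rw [pp hu.1, pp hvv, hu.2, Fv],
      fun y hy => by rw [h.apply_pPart hF hFT hu.1 (sq hy) (Fc y hy), pp hvv, hu.2, Fv]⟩)
    (fun y hy => ?_) (by rw [pp hvv, Fv, pPart_one, F1]; norm_num)
    (by rw [pp hvv, Fv, pPart_one, F1]; norm_num)
  obtain ⟨h1, h2⟩ := invol_mul_pPart T h.comm hvv (sq hy)
  have h3 := (h.apply_pPart hF hFT hvv (sq hy) (Fc y hy)).trans Fv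
  refine ⟨⟨h2, h3⟩, ⟨_, pPrimePart_mem_centralizer_pPart 2 (v * y)⟩, ?_, rfl⟩
  set d := pPart 2 (v * y)
  let v' : centralizer ({d} : Set G) := ⟨v, mem_centralizer_singleton_iff.2 h1⟩
  let w : centralizer ({d} : Set G) := ⟨_, pPrimePart_mem_centralizer_pPart 2 (v * y)⟩
  have h4 : IsIsolInv v' := isIsolInv_of_forall (Subtype.ext hvv) fun u hu hc' => by
    obtain ⟨x, rfl⟩ := isConj_iff.1 hu
    exact Subtype.ext (h.isolated hF hFT hv hvc (isPElt_pPart 2 _) (by rw [h3]; norm_num) h1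
      (mem_centralizer_singleton_iff.1 x.2) (congrArg Subtype.val hc'))
  have h5 := ((abelianSylow_of_sylow T ⟨⟨fun a b => Subtype.ext (h.comm b.2 a a.2)⟩⟩).subgroup
    _).zstar h4 w⁻¹
  have h6 := conj_eq_inv_of_mem_zpowers (conj_mul_eq_inv hvv (sq hy))
    (inv_mem (pPrimePart_mem_zpowers 2 (v * y)))
  refine mem_of_isPRegular_of_mul_self_mem (s := w)
    (isPRegular_coe_iff.1 (isPRegular_pPrimePart 2 _)) ?_
  convert h5 using 1
  refine Subtype.ext ?_
  simp only [coe_mul, coe_inv, inv_inv, v', w] at h6 ⊢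
  rw [inv_eq_of_mul_eq_one_right hvv] at h6
  rw [← mul_assoc, ← mul_assoc, h6]

end AbTri

end Cfsg.GW

set_option linter.all false in
theorem Cfsg.Rz.GW_AbelA_0 : True := by
  have := @_root_.Cfsg.GW.eta3.eq_def.{0}
  have := @_root_.Cfsg.GW.eta3.fun_cases
  have := @_root_.Cfsg.GW.AbTri.mk.congr_simp.{0}
  trivial
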